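import Cfsg.Agent.Nodes.WittInst
import Cfsg.Agent.H716.RGDAb

/-!
# S4929 [TM-O]: moved torus elements in Witt frames of orthogonal type (helper848)

* `moved_gen` : `p ∣ |T|` odd: an element of order `p` of `T` which does not commute with some `φ (ν i)`.
-/

set_option autoImplicit false
set_option linter.unusedSectionVars false

namespace Cfsg.Agent.H848.EP

open Cfsg
open Cfsg.Agent.Nodes.WittRoot
open Cfsg.Agent.Nodes.WittRGD (Tor mem_Tor b_ne_zero)
open Cfsg.Agent.TitsThree Cfsg.Agent.TitsThree.Siegel Cfsg.Agent.TitsThree.WittFrame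

variable {F : Type*} [Field F] {V : Type*} [AddCommGroup V] [Module F V] {H : HForm F V} {n : ℕ}
  {Fr : Frame H (Fin n)} {G0 : Subgroup (V ≃ₗ[F] V)} {K : Type*} [Group K]

/-- scalars of isometries, orthogonal case -/
theorem sq_of_scalar (Fr : Frame H (Fin n)) (hσ : ∀ t, H.σ t = t) (x : Fin n × Bool) {g k : V ≃ₗ[F] V} (hg : H.IsIso g) (hk : H.IsIso k)
    {c : F} (h : ∀ v, g v = c • k v) : c * c = 1 := by
  have h1 := hg (Fr.b x) (Fr.b (neg x))
  rw [h, h, H.smul_left, H.smul_right, hσ, hk, ← mul_assoc] at h1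
  have h2 : H.h (Fr.b x) (Fr.b (neg x)) ≠ 0 := by
    rw [Fr.hb_self_neg]
    exact Fr.η_ne _
  exact mul_right_cancel₀ h2 (h1.trans (one_mul _).symm)

theorem moved_gen (φ : G0 →* K) (hker : ∀ g : G0, φ g = 1 → ∃ a : F, ∀ v, g.1 v = a • v)
    (hiso : ∀ g ∈ G0, H.IsIso g) (hσ : ∀ t, H.σ t = t) (x0 : Fin n × Bool) {ι : Type*} (ν : ι → G0)
    (π : ι → Fin n × Bool → Fin n × Bool) (hm : ∀ i, Mono Fr (ν i).1 (π i))
    (htr : ∀ d : Fin n × Bool → F, (∀ i x, d (π i x) = d x) → ∀ x, d x = d (neg x)) [Finite K] {p : ℕ} (hp : p.Prime)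
    (hp2 : p ≠ 2)
    (hlast : ∀ s ∈ Tor Fr G0, s ^ p = 1 → (∀ x, s (Fr.b x) = Fr.b x) → (∀ i, ∀ v, (ν i).1 (s v) = s ((ν i).1 v)) →
      s = 1)
    (hd : p ∣ Nat.card (((Tor Fr G0).subgroupOf G0).map φ)) :
    ∃ i, ∃ t ∈ ((Tor Fr G0).subgroupOf G0).map φ, (∃ k : ℕ, t ^ p ^ k = 1) ∧ φ (ν i) * t ≠ t * φ (ν i) := by
  have : Fact p.Prime := ⟨hp⟩
  obtain ⟨⟨t, htT⟩, ht⟩ := exists_prime_orderOf_dvd_card' (G := ↥(((Tor Fr G0).subgroupOf G0).map φ)) p hd
  rw [Subgroup.orderOf_mk] at ht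
  have htp : t ^ p = 1 := by rw [← ht, pow_orderOf_eq_one]
  by_contra hcon
  have hc : ∀ i, φ (ν i) * t = t * φ (ν i) := fun i => by
    by_contra hne
    exact hcon ⟨i, t, htT, ⟨1, by rw [pow_one, htp]⟩, hne⟩
  obtain ⟨s, hs, rfl⟩ := htT
  have hsT : s.1 ∈ Tor Fr G0 := hs
  have hsI : H.IsIso s.1 := hiso _ s.2
  -- the commutators are scalars
  have h1 : ∀ i, ∃ c : F, ∀ v, (ν i).1 (s.1 v) = c • s.1 ((ν i).1 v) := by
    intro i
    let z : G0 := (s * ν i)⁻¹ * (ν i * s)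
    have hz : φ z = 1 := by
      rw [map_mul, map_inv, map_mul, map_mul, hc, inv_mul_cancel]
    obtain ⟨a, ha⟩ := hker z hz
    refine ⟨a, fun v => ?_⟩
    have h2 : ν i * s = s * ν i * z := by
      change ν i * s = s * ν i * ((s * ν i)⁻¹ * (ν i * s))
      group
    have h3 := congrArg (fun g : G0 => g.1 v) h2
    change (ν i).1 (s.1 v) = s.1 ((ν i).1 (z.1 v)) at h3
    rw [h3, ha, map_smul, map_smul]
  have h2 : ∀ i v, (ν i).1 ((s.1 * s.1) v) = (s.1 * s.1) ((ν i).1 v) := by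
    intro i v
    obtain ⟨c, hcv⟩ := h1 i
    have hcc : c * c = 1 := by
      refine sq_of_scalar Fr hσ x0 (g := (ν i).1 * s.1) (k := s.1 * (ν i).1) ?_ ?_ hcv
      · intro v w
        exact (hiso _ (ν i).2 _ _).trans (hsI _ _)
      · intro v w
        exact (hsI _ _).trans (hiso _ (ν i).2 _ _)
    change (ν i).1 (s.1 (s.1 v)) = s.1 (s.1 ((ν i).1 v))
    rw [hcv, hcv, map_smul, smul_smul, hcc, one_smul]
  have h3 : (s.1 * s.1) ^ p = 1 := by
    obtain ⟨a, ha⟩ := hker (s ^ p) (by rw [map_pow, htp])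
    have ha' : ∀ v, (s.1 ^ p) v = a • v := ha
    have haa : a * a = 1 := by
      refine sq_of_scalar Fr hσ x0 (g := s.1 ^ p) (k := 1) ?_ (fun _ _ => rfl) ha'
      exact hiso _ (pow_mem s.2 p)
    have h4 : (s.1 * s.1) ^ p = s.1 ^ p * s.1 ^ p := by rw [← pow_two, ← pow_mul, mul_comm, pow_mul, pow_two]
    rw [h4]
    ext1 v
    change (s.1 ^ p) ((s.1 ^ p) v) = v
    rw [ha', ha', smul_smul, haa, one_smul]
  have hs2T : s.1 * s.1 ∈ Tor Fr G0 := mul_mem hsT hsT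
  -- the eigenvalues
  choose d hd0 hdx using hs2T.2
  have hdx' : ∀ x, (s.1 * s.1) (Fr.b x) = d x • Fr.b x := hdx
  have h4 : ∀ i x, d (π i x) = d x := by
    intro i x
    obtain ⟨l, hl, e⟩ := hm i x
    have h5 := h2 i (Fr.b x)
    rw [hdx', map_smul, e, map_smul, hdx', smul_smul, smul_smul, mul_comm (d x)] at h5
    have h6 : (l * d x - l * d (π i x)) • Fr.b (π i x) = 0 := by rw [sub_smul, h5, sub_self]
    have h7 := (smul_eq_zero.1 h6).resolve_right (b_ne_zero (π i x))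
    exact (mul_left_cancel₀ hl (sub_eq_zero.1 h7)).symm
  have h5 : ∀ x, s.1 * s.1 ∈ G0 ∧ (s.1 * s.1) (Fr.b x) = Fr.b x := by
    intro x
    refine ⟨hs2T.1, ?_⟩
    have h6 := htr d h4 x
    have h7 := hiso _ hs2T.1 (Fr.b x) (Fr.b (neg x))
    rw [hdx', hdx', H.smul_left, H.smul_right, hσ, ← h6, ← mul_assoc] at h7
    have h8 : H.h (Fr.b x) (Fr.b (neg x)) ≠ 0 := by
      rw [Fr.hb_self_neg]
      exact Fr.η_ne _
    have h9 : d x * d x = 1 := mul_right_cancel₀ h8 (h7.trans (one_mul _).symm)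
    have h10 : ∀ m : ℕ, ((s.1 * s.1) ^ m) (Fr.b x) = d x ^ m • Fr.b x := by
      intro m
      induction m with
      | zero => rw [pow_zero, pow_zero, one_smul]; rfl
      | succ m ih =>
        rw [pow_succ]
        change ((s.1 * s.1) ^ m) ((s.1 * s.1) (Fr.b x)) = _
        rw [hdx', map_smul, ih, smul_smul, pow_succ, mul_comm]
    have h11 : d x ^ p = 1 := by
      have h12 := h10 p
      rw [h3] at h12
      have h13 : (d x ^ p - 1) • Fr.b x = 0 := by
        rw [sub_smul, one_smul, ← h12]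
        exact sub_self _
      exact sub_eq_zero.1 ((smul_eq_zero.1 h13).resolve_right (b_ne_zero x))
    have h12 : d x = 1 := by
      obtain ⟨m, hm'⟩ := hp.odd_of_ne_two hp2
      rw [hm', pow_succ, pow_mul, pow_two, h9, one_pow, one_mul] at h11
      exact h11
    rw [hdx', h12, one_smul]
  have h6 : s.1 * s.1 = 1 := hlast _ hs2T h3 (fun x => (h5 x).2) h2
  have h7 : φ s ^ 2 = 1 := by
    rw [← map_pow]
    have : s ^ 2 = 1 := Subtype.ext (by
      change (s ^ 2 : G0).1 = 1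
      rw [pow_two]
      exact h6)
    rw [this, map_one]
  have h8 := orderOf_dvd_of_pow_eq_one h7
  rw [ht] at h8
  exact hp2 ((Nat.prime_dvd_prime_iff_eq hp Nat.prime_two).1 h8)

end Cfsg.Agent.H848.EP
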